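import Cfsg.Agent.Lib.CNil.Lq

/-! Quadratic groups with a small involution: a cyclic section or a transitive odd group. -/

set_option autoImplicit false

open Subgroup Cfsg CfsgLib.LAE CfsgLib.ZN CfsgLib.MinS CfsgLib.Cop CfsgLib.CNil Module
open scoped commutatorElement

namespace CfsgLib.Der

variable {V : Type*} [AddCommGroup V] [Module (ZMod 2) V] [Finite V]
variable {F Q : Subgroup (GLv V)} {s t d y z g : GLv V}

omit [Finite V] in
theorem q3_ci (t2 : t * t = 1) (f : GLv V) : t * ⁅f, t⁆ * t⁻¹ = ⁅f, t⁆⁻¹ := by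
  have ti : t⁻¹ = t := inv_eq_of_mul_eq_one_right t2
  rw [commutatorElement_inv, commutatorElement_def, commutatorElement_def, ti, mul_assoc,
    mul_assoc (f * t * f⁻¹), t2]; group

omit [Finite V] in
theorem q3_exists_inv (h : QH F Q) (hf : Q ⊓ centralizer (F : Set (GLv V)) = ⊥) (ht : Sm Q t) :
    ∃ d ∈ invertedBy F t, d ≠ 1 := by
  by_contra! hh
  refine ht.2.1 (mem_bot.1 (hf.le ⟨ht.1, fun f hf' =>
    commutatorElement_eq_one_iff_mul_comm.1 (hh _ ⟨?_, q3_ci (h.sq ht.1) f⟩)⟩))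
  rw [commutatorElement_def, mul_assoc, mul_assoc, ← mul_assoc t]
  exact mul_mem hf' (conj_mem_of_mem_normalizer (h.nrm ht.1) (inv_mem hf'))

/-- The elements of `Z([F, t])` inverted by `t` form a cyclic group. -/
theorem q3_cyc (h : QH F Q) (ht : Sm Q t)
    (hy : y ∈ closure (invertedBy F t) ⊓ centralizer (invertedBy F t)) (hi : t * y * t⁻¹ = y⁻¹)
    (hg : g ∈ normalizer (F : Set (GLv V))) (gt : g * t * g⁻¹ = t) :
    g ∈ normalizer (zpowers y : Set (GLv V)) := by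
  have PF : closure (invertedBy F t) ≤ F := (closure_le F).2 fun x hx => hx.1
  let J : Subgroup (GLv V) :=
    { carrier := {x | x ∈ closure (invertedBy F t) ⊓ centralizer (invertedBy F t) ∧
        t * x * t⁻¹ = x⁻¹}
      one_mem' := ⟨one_mem _, by simp⟩
      mul_mem' := fun {a b} ha hb => ⟨mul_mem ha.1 hb.1, by
        rw [← conj_mul, ha.2, hb.2, ← mul_inv_rev, (h.comm_zs ht ht ha.1 hb.1.1).eq]⟩
      inv_mem' := fun {a} ha => ⟨inv_mem ha.1, by rw [← conj_inv, ha.2]⟩ }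
  by_cases y0 : y = 1
  · rw [y0, zpowers_one_eq_bot, normalizer_eq_top]; exact mem_top g
  have yI : ∀ x ∈ J, x ∈ invertedBy F t := fun x hx => ⟨PF hx.1.1, hx.2⟩
  obtain ⟨d1, -, d3⟩ := h.dims ht (yI y ⟨hy, hi⟩) y0
  have hJ : Nat.card J ∣ 15 := by
    have := PD.card_dvd_of_free_set J ((cm ⊤ y : Set V) \ {0}) (fun x hx v hv =>
      ⟨Inv.cm_comm (h.comm_zs ht ht hx.1 hy.1).eq (Inv.top x) v hv.1,
        fun e => hv.2 (x.map_eq_zero_iff.1 e)⟩) fun x hx v hv e => by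
      by_contra x0
      obtain ⟨-, -, e3⟩ := h.dims ht (yI x hx) x0
      have l1 : cm ⊤ t ≤ cm ⊤ x := e3 ▸ le_sup_left
      have l2 : cm ⊤ y ≤ cm ⊤ x := d3 ▸ sup_le l1 ((Submodule.map_mono l1).trans
        (Inv.cm_comm (h.comm_zs ht ht hy hx.1.1).eq (Inv.top y)).map_le)
      exact hv.2 ((Submodule.mem_bot _).1 ((cm_inf_fx (M1.odd_orderOf_of_mem h.odd (yI x hx).1) ⊤).le
        ⟨l2 hv.1, mem_fx.2 e⟩))
    rwa [Set.ncard_sdiff_singleton_of_mem (cm ⊤ y).zero_mem, ← Nat.card_coe_set_eq,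
      show Nat.card ((cm ⊤ y : Submodule (ZMod 2) V) : Set V) = 2 ^ 4 by
        rw [← d1]
        simpa [Nat.card_zmod] using Module.natCard_eq_pow_finrank (K := ZMod 2) (V := cm ⊤ y)] at this
  have z1 : IsZGroup J := IsZGroup.of_squarefree
    (Squarefree.squarefree_of_dvd hJ (by decide +kernel))
  have z2 := h.nil
  have z3 : Group.IsNilpotent J := Group.nilpotent_of_mulEquiv
    (subgroupOfEquivOfLe (fun x hx => (yI x hx).1 : J ≤ F))
  have gJ : g ∈ normalizer (J : Set (GLv V)) := mem_normalizer_fintype fun x hx =>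
    ⟨by simpa only [gt] using conj_zs hg hx.1, by
      simpa only [gt] using (conj_iv hg (yI x hx)).2⟩
  let φ := J.normalizerMonoidHom ⟨g, gJ⟩
  obtain ⟨m, hm⟩ := MonoidHom.map_cyclic φ.toMonoidHom
  have e : g * y * g⁻¹ = y ^ m := congrArg Subtype.val (hm ⟨y, hy, hi⟩)
  refine mem_normalizer_fintype fun x hx => ?_
  obtain ⟨n, rfl⟩ := mem_zpowers_iff.1 hx
  rw [← conj_zpow, e]
  exact zpow_mem (zpow_mem (mem_zpowers y) m) n

/-- If `t` centralizes `Z([F, t])`, an element of `[F, t]` is transitive on `[V, t]^#`. -/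
theorem q3_three (h : QH F Q) (hf : Q ⊓ centralizer (F : Set (GLv V)) = ⊥) (ht : Sm Q t)
    (hb : ∀ z ∈ closure (invertedBy F t) ⊓ centralizer (invertedBy F t), ⁅z, t⁆ = 1) :
    cm ⊤ t ≠ ⊥ ∧ ∃ z ∈ closure (invertedBy F t), ∀ v ∈ cm ⊤ t, v ≠ 0 →
      z v ≠ v ∧ ∀ v' ∈ cm ⊤ t, v' ≠ 0 → ∃ m : ℕ, (z ^ m) v = v' := by
  have PF : closure (invertedBy F t) ≤ F := (closure_le F).2 fun x hx => hx.1
  obtain ⟨d, hd, d0⟩ := q3_exists_inv h hf ht
  obtain ⟨-, l2, -⟩ := h.dims ht hd d0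
  have zl : ∀ z ∈ closure (invertedBy F t) ⊓ centralizer (invertedBy F t), Inv (cm ⊤ t) z :=
    fun z hz => Inv.cm_comm (commutatorElement_eq_one_iff_mul_comm.1 (hb z hz)) (Inv.top z)
  have key : ∀ z ∈ closure (invertedBy F t) ⊓ centralizer (invertedBy F t), ∀ v ∈ cm ⊤ t, v ≠ 0 →
      z v = v → z = 1 := fun z hz v hv v0 e => by
    have zo := M1.odd_orderOf_of_mem h.odd (PF hz.1)
    have k1 : cm ⊤ t ≤ fx z := fun u hu => mem_fx.2 (by
      by_cases u0 : u = 0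
      · rw [u0, map_zero]
      by_cases uv : u = v
      · rw [uv, e]
      rcases two_dim l2 hv hu v0 u0 uv (zl z hz u hu) with k | k | k | k
      · exact absurd (z.map_eq_zero_iff.1 k) u0
      · exact absurd (z.injective (k.trans e.symm)) uv
      · exact k
      · exact fix_of_sq zo (by rw [k, map_add, e, k, ← add_assoc, add_self_v, zero_add]))
    let R : Subgroup (GLv V) :=
      { carrier := {x | cm ⊤ x ≤ fx z}
        one_mem' := (cm_eq_bot.2 (fx_eq_top.2 rfl).ge).le.trans bot_le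
        mul_mem' := fun {a b} ha hb => (cm_mul_le a b).trans (sup_le ha hb)
        inv_mem' := fun {a} ha => (cm_top_inv a).le.trans ha }
    refine eq_one_of_cm_le zo ((closure_le R).2 (fun x hx => ?_) hz.1)
    by_cases x0 : x = 1
    · exact x0 ▸ R.one_mem
    obtain ⟨-, -, e3⟩ := h.dims ht hx x0
    exact e3.ge.trans (sup_le k1 ((Submodule.map_mono k1).trans (Inv.fx_comm (hz.2 x hx)).map_le))
  obtain ⟨z, hz, z0⟩ : ∃ z ∈ closure (invertedBy F t) ⊓ centralizer (invertedBy F t), z ≠ 1 := by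
    have := h.nil
    have : Group.IsNilpotent (closure (invertedBy F t)) :=
      Group.nilpotent_of_mulEquiv (subgroupOfEquivOfLe PF)
    have : Nontrivial (closure (invertedBy F t)) :=
      ⟨⟨⟨d, subset_closure hd⟩, 1, fun e => d0 (congrArg Subtype.val e)⟩⟩
    obtain ⟨⟨z, hz⟩, z0⟩ := ne_bot_iff_exists_ne_one.1
      (Group.IsNilpotent.center_ne_bot (G := closure (invertedBy F t)))
    exact ⟨z, ⟨z.2, fun x hx => congrArg Subtype.val
      (mem_center_iff.1 hz ⟨x, subset_closure hx⟩)⟩, fun e => z0 (Subtype.ext (Subtype.ext e))⟩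
  refine ⟨fun e => by rw [e, finrank_bot] at l2; omega, z, hz.1, fun w hw w0 => ?_⟩
  have zw : z w ≠ w := fun e => z0 (key z hz w hw w0 e)
  have fp : cm ⊤ t ⊓ fx z = ⊥ := eq_bot_iff.2 fun v hv => by
    by_contra v0
    exact z0 (key z hz v hv.1 v0 (mem_fx.1 hv.2))
  have sq := sq_of_two_dim l2 (zl z hz) fp hw
  have zw0 : z w ≠ 0 := fun e => w0 (z.map_eq_zero_iff.1 e)
  refine ⟨zw, fun v' hv' v0 => ?_⟩
  rcases two_dim l2 hw (zl z hz w hw) w0 zw0 zw hv' with k | k | k | k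
  · exact absurd k v0
  · exact ⟨0, by rw [k]; rfl⟩
  · exact ⟨1, by rw [k, pow_one]⟩
  · exact ⟨2, by rw [k, pow_two, gmul, sq]⟩

/-- A small involution gives a cyclic section or a transitive action of `F`. -/
theorem q3_dich (h : QH F Q) (hf : Q ⊓ centralizer (F : Set (GLv V)) = ⊥) (ht : Sm Q t) :
    (∃ s ∈ Q, ∃ y ∈ F, ¬ Commute s y ∧ ∀ g ∈ normalizer (F : Set (GLv V)),
      g ∈ normalizer (Q : Set (GLv V)) →
        (g * s * g⁻¹ = s ∧ g ∈ normalizer (zpowers y : Set (GLv V))) ∨ Commute (g * s * g⁻¹) y) ∨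
    ∃ u : V, (∃ f ∈ F, f u ≠ u) ∧ ∀ g ∈ normalizer (F : Set (GLv V)),
      g ∈ normalizer (Q : Set (GLv V)) → ∃ f ∈ F, f u = g u := by
  classical
  have PF : ∀ s, closure (invertedBy F s) ≤ F := fun s => (closure_le F).2 fun x hx => hx.1
  by_cases hb : ∃ s, Sm Q s ∧
      ∃ z ∈ closure (invertedBy F s) ⊓ centralizer (invertedBy F s), ⁅z, s⁆ ≠ 1
  · obtain ⟨s, hs, z, hz, y0⟩ := hb
    have hy : ⁅z, s⁆ ∈ closure (invertedBy F s) ⊓ centralizer (invertedBy F s) := by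
      have := conj_zs (h.nrm hs.1) (inv_mem hz)
      rw [mul_inv_cancel_right] at this
      rw [commutatorElement_def, mul_assoc, mul_assoc, ← mul_assoc s]
      exact mul_mem hz this
    have hi := q3_ci (h.sq hs.1) z
    generalize ⁅z, s⁆ = y at hy hi y0
    refine .inl ⟨s, hs.1, y, PF s hy.1, fun e => y0 (M1.eq_one_of_odd_of_inv
      (M1.odd_orderOf_of_mem h.odd (PF s hy.1)) ?_), fun g hg hq => ?_⟩
    · rw [← hi, e.eq, mul_inv_cancel_right]
    · by_cases e : g * s * g⁻¹ = s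
      · exact .inl ⟨e, q3_cyc h hs hy hi hg e⟩
      · exact .inr (h.comm_cl (hs.conj hq) hs e hy.1)
  push Not at hb
  have H := fun s (hs : Sm Q s) => q3_three h hf hs (hb s hs)
  have hu : ∀ s, ∃ u : V, Sm Q s → u ∈ cm ⊤ s ∧ u ≠ 0 := fun s => by
    by_cases hs : Sm Q s
    · obtain ⟨w, hw, w0⟩ := (Submodule.ne_bot_iff _).1 (H s hs).1
      exact ⟨w, fun _ => ⟨hw, w0⟩⟩
    · exact ⟨0, fun e => absurd e hs⟩
  choose u hu using hu
  let O : Finset (GLv V) := (Set.toFinite {s | Sm Q s}).toFinset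
  have mO : ∀ s, s ∈ O ↔ Sm Q s := fun s => Set.Finite.mem_toFinset _
  refine .inr ⟨∑ s ∈ O, u s, ?_, fun g hg hq => ?_⟩
  · obtain ⟨z, hz, k⟩ := (H t ht).2
    refine ⟨z, PF t hz, fun e => (k _ (hu t ht).1 (hu t ht).2).1 ?_⟩
    rw [← Finset.add_sum_erase _ _ ((mO t).2 ht), map_add, map_sum,
      Finset.sum_congr rfl fun j hj => h.fix_cl ((mO j).1 (Finset.mem_of_mem_erase hj)) ht
        (Finset.ne_of_mem_erase hj) hz (hu j ((mO j).1 (Finset.mem_of_mem_erase hj))).1] at e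
    exact add_right_cancel e
  · have hu' : ∀ s, Sm Q s → g (u (g⁻¹ * s * g⁻¹⁻¹)) ∈ cm ⊤ s ∧ g (u (g⁻¹ * s * g⁻¹⁻¹)) ≠ 0 :=
      fun s hs => by
        obtain ⟨a1, a2⟩ := hu _ (hs.conj (inv_mem hq))
        refine ⟨?_, fun e => a2 (g.map_eq_zero_iff.1 e)⟩
        have e : s = g * (g⁻¹ * s * g⁻¹⁻¹) * g⁻¹ := by group
        nth_rewrite 1 [e]
        rw [cm_top_conj]
        exact Submodule.mem_map_of_mem a1
    have key : ∀ T : Finset (GLv V), T ⊆ O → ∃ f ∈ F,
        (∀ s ∈ T, f (u s) = g (u (g⁻¹ * s * g⁻¹⁻¹))) ∧ ∀ s ∈ O, s ∉ T → f (u s) = u s := fun T => by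
      induction T using Finset.induction_on with
      | empty => exact fun _ => ⟨1, one_mem _, by simp, fun _ _ _ => rfl⟩
      | insert j T hj ih =>
        intro hT
        obtain ⟨f, hf', e1, e2⟩ := ih ((Finset.subset_insert j T).trans hT)
        have jO := hT (Finset.mem_insert_self j T)
        have hj' := (mO j).1 jO
        obtain ⟨z, hz, k⟩ := (H j hj').2
        obtain ⟨m, hm⟩ := (k _ (hu j hj').1 (hu j hj').2).2 _ (hu' j hj').1 (hu' j hj').2
        have zm := pow_mem hz m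
        refine ⟨z ^ m * f, mul_mem (PF j zm) hf', fun s hs => ?_, fun s hs hn => ?_⟩
        · rw [gmul]
          rcases Finset.mem_insert.1 hs with rfl | hs'
          · rw [e2 s jO hj, hm]
          · have s1 := (mO s).1 (hT hs)
            rw [e1 s hs', h.fix_cl s1 hj' (fun e => hj (e ▸ hs')) zm (hu' s s1).1]
        · have s1 := (mO s).1 hs
          rw [gmul, e2 s hs fun e => hn (Finset.mem_insert_of_mem e),
            h.fix_cl s1 hj' (fun e => hn (e ▸ Finset.mem_insert_self s T)) zm (hu s s1).1]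
    obtain ⟨f, hf', e1, -⟩ := key O subset_rfl
    refine ⟨f, hf', ?_⟩
    rw [map_sum, map_sum, Finset.sum_congr rfl e1]
    refine Finset.sum_nbij' (fun s => g⁻¹ * s * g⁻¹⁻¹) (fun s => g * s * g⁻¹)
      (fun s hs => (mO _).2 (((mO s).1 hs).conj (inv_mem hq)))
      (fun s hs => (mO _).2 (((mO s).1 hs).conj hq)) (fun s _ => by group) (fun s _ => by group)
      fun s _ => rfl

end CfsgLib.Der
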