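import Cfsg.Agent.Lib.ChDeg.Deg
import Cfsg.Agent.Lib.Char.Ortho
import Cfsg.Agent.Lib.Fgs.ClassSize

/-! Anticentral elements: supplements of the derived group meet it in their own derived group. -/

set_option autoImplicit false

namespace CfsgLib.Der

open Cfsg CfsgLib.Char CfsgLib.ChDeg Subgroup
open scoped commutatorElement

variable {G : Type*} [Group G] [Finite G]

theorem isConj_of_vanish {g : G}
    (hg : ∀ χ : IrrCharacter G, charDegree (χ : G → ℂ) ≠ 1 → (χ : G → ℂ) g = 0) {h : G}
    (hh : h ∈ _root_.commutator G) : IsConj g (g * h) := by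
  by_contra hn
  have e1 := column_orthogonality_of_not_isConj hn
  have e2 := column_orthogonality_self g
  rw [Finset.sum_congr rfl fun χ _ => ?_, e2] at e1
  · exact Nat.card_pos.ne' (Nat.cast_eq_zero.1 e1)
  by_cases h1 : charDegree (χ : G → ℂ) = 1
  · rw [char_mul_of_mem_cker' (isCharacter_of_isIrr χ.2) ((deg_eq_one_iff_commutator_le χ.2).1 h1 hh)]
  · rw [hg χ h1, zero_mul, zero_mul]

theorem index_cent_le (y : G) : (centralizer {y}).index ≤ Nat.card (_root_.commutator G) := by
  rw [← Fgs.ncard_isConj_eq_index, ← Nat.card_coe_set_eq]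
  refine Nat.card_le_card_of_injective (fun z => ⟨z.1 * y⁻¹, ?_⟩) fun a b e =>
    Subtype.ext (mul_right_cancel (congrArg Subtype.val e))
  obtain ⟨c, hc⟩ := isConj_iff.1 z.2
  rw [← hc]
  exact commutator_mem_commutator (mem_top c) (mem_top y)

theorem le_index_cent {y : G} {K : Subgroup G} (h : ∀ k ∈ K, IsConj y (y * k)) :
    Nat.card K ≤ (centralizer {y}).index := by
  rw [← Fgs.ncard_isConj_eq_index, ← Nat.card_coe_set_eq]
  exact Nat.card_le_card_of_injective (fun k => ⟨y * k, h k k.2⟩) fun a b e =>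
    Subtype.ext (mul_left_cancel (congrArg Subtype.val e))

/-- The counting argument. -/
theorem inf_le_commutator {g : G} (h : ∀ k ∈ _root_.commutator G, IsConj g (g * k)) {Y : Subgroup G}
    (hY : Y ⊔ _root_.commutator G = ⊤) : Y ⊓ _root_.commutator G ≤ ⁅Y, Y⁆ := by
  obtain ⟨y, hy, k, hk, rfl⟩ := mem_sup_of_normal_right.1 (hY.ge (mem_top g))
  have h1 : ∀ k' ∈ _root_.commutator G, IsConj y (y * k') := fun k' hk' => by
    have e1 := h _ (inv_mem hk)
    have e2 := h _ (mul_mem (inv_mem hk) hk')
    rw [mul_inv_cancel_right] at e1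
    rw [mul_assoc, mul_inv_cancel_left] at e2
    exact e1.symm.trans e2
  have a1 := le_index_cent h1
  have a2 := index_cent_le (⟨y, hy⟩ : Y)
  have a3 : Nat.card (centralizer {(⟨y, hy⟩ : Y)}) ≤ Nat.card (centralizer {y}) :=
    Nat.card_le_card_of_injective (fun c => ⟨c.1, mem_centralizer_singleton_iff.2
      (congrArg Subtype.val (mem_centralizer_singleton_iff.1 c.2))⟩) fun a b e =>
        Subtype.ext (Subtype.ext (congrArg (fun z : centralizer {y} => (z : G)) e))
  have a4 := card_mul_index (centralizer {y})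
  have a5 := card_mul_index (centralizer {(⟨y, hy⟩ : Y)})
  have a6 : Nat.card (_root_.commutator Y) = Nat.card ↥⁅Y, Y⁆ := by
    rw [← map_subtype_commutator, card_map_of_injective Y.subtype_injective]
  have a7 : (_root_.commutator G).relIndex Y = (_root_.commutator G).index := by
    rw [← relIndex_sup_right, hY, relIndex_top_right]
  have a8 := card_mul_index ((_root_.commutator G).subgroupOf Y)
  have a9 := card_mul_index (_root_.commutator G)
  have b1 : Nat.card ((_root_.commutator G).subgroupOf Y) = Nat.card ↥(Y ⊓ _root_.commutator G) := by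
    rw [← inf_subgroupOf_left, Nat.card_congr (subgroupOfEquivOfLe inf_le_left).toEquiv]
  rw [← relIndex, a7, b1] at a8
  have b2 : ⁅Y, Y⁆ ≤ Y ⊓ _root_.commutator G :=
    le_inf (by rw [← map_subtype_commutator]; exact map_subtype_le _) (commutator_mono le_top le_top)
  refine (eq_of_le_of_card_ge b2 ?_).ge
  have p1 : 0 < Nat.card (_root_.commutator G) := Nat.card_pos
  have c1 : Nat.card (centralizer {y}) ≤ (_root_.commutator G).index :=
    Nat.le_of_mul_le_mul_left (by rw [a9, ← a4, mul_comm]; exact Nat.mul_le_mul_left _ a1) p1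
  refine Nat.le_of_mul_le_mul_right ?_ (Nat.pos_of_ne_zero (index_ne_zero_of_finite (H := _root_.commutator G)))
  rw [a8, ← a5, ← a6, mul_comm]
  exact Nat.mul_le_mul a2 (a3.trans c1)

theorem inf_le_of_vanish {g : G}
    (hg : ∀ χ : IrrCharacter G, charDegree (χ : G → ℂ) ≠ 1 → (χ : G → ℂ) g = 0) {Y : Subgroup G}
    (hY : Y ⊔ _root_.commutator G = ⊤) : Y ⊓ _root_.commutator G ≤ ⁅Y, Y⁆ :=
  inf_le_commutator (fun _ => isConj_of_vanish hg) hY

end CfsgLib.Der
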